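import Cfsg.Agent.H162.CC.Tools3
import Cfsg.Agent.H859.Heis

/-!
# S3828: the prime 5 with a Sylow subgroup of order 125 and exponent 5 (helper174, for helper162)

* `not_mem_of_comm` : `x ∉ C` if some commutator `[x, x^g] ≠ 1` has order prime to `p`;
* `heis_five` : Sylow 5-subgroup `⟨a, b⟩`, `b a = a b w`: if `w`, `b`, `a b^j` (`j < 5`) do not lie in `C` then `C` is trivial.
-/

set_option autoImplicit false

namespace Cfsg.Agent.H174.CC

open Subgroup Cfsg Cfsg.Agent.H162.CCR Cfsg.Agent.H859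

variable {G : Type*} [Group G] {C : Set G}

/-- **certificate**: a commutator of `x` and a conjugate of `x` which is no `p`-element -/
theorem not_mem_of_comm {p : ℕ} (h : CC p C) {x g : G} {n : ℕ}
    (hn : (x⁻¹ * (g * x * g⁻¹)⁻¹ * x * (g * x * g⁻¹)) ^ n = 1)
    (h1 : x⁻¹ * (g * x * g⁻¹)⁻¹ * x * (g * x * g⁻¹) ≠ 1) (hc : Nat.Coprime p n) : x ∉ C := by
  intro hx
  obtain ⟨k, hk⟩ := h.pel _ (h.comm x hx _ (h.conj g x hx))
  apply h1
  rw [← orderOf_eq_one_iff]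
  have h2 := orderOf_dvd_of_pow_eq_one hn
  rw [hk] at h2
  rw [hk]
  exact Nat.Coprime.eq_one_of_dvd (Nat.Coprime.pow_left k hc) h2

/-- powers -/
theorem pow_mem_C (h : CC 5 C) {x : G} (hx : x ∈ C) (h5 : x ^ 5 = 1) {m : ℕ} (hm : ¬ 5 ∣ m) : x ^ m ∈ C := by
  have h2 := h.sq rfl x hx
  have h4 := h.sq rfl _ h2
  have h8 := h.sq rfl _ h4
  rw [← pow_mul] at h4 h8
  rw [← pow_mul] at h8
  rw [Heis.pow_red h5]
  have h3 : x ^ (2 * 2 * 2) = x ^ 3 := Heis.pow_red h5 _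
  rw [h3] at h8
  have h6 : m % 5 < 5 := Nat.mod_lt _ (by norm_num)
  have h7 : m % 5 ≠ 0 := fun h => hm (Nat.dvd_of_mod_eq_zero h)
  generalize m % 5 = r at h6 h7 ⊢
  interval_cases r
  · exact absurd rfl h7
  · rwa [pow_one]
  · exact h2
  · exact h8
  · exact h4

theorem exists_inv_mod {i : ℕ} (hi : ¬ 5 ∣ i) : ∃ n : ℕ, ¬ 5 ∣ n ∧ n * i % 5 = 1 := by
  have h7 : i % 5 ≠ 0 := fun h => hi (Nat.dvd_of_mod_eq_zero h)
  have h6 : i % 5 < 5 := Nat.mod_lt _ (by norm_num)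
  have key : ∀ r : ℕ, r < 5 → r ≠ 0 → ∃ n : ℕ, ¬ 5 ∣ n ∧ n * r % 5 = 1 := by
    intro r h1 h2
    interval_cases r
    · exact absurd rfl h2
    · exact ⟨1, by norm_num, by norm_num⟩
    · exact ⟨3, by norm_num, by norm_num⟩
    · exact ⟨2, by norm_num, by norm_num⟩
    · exact ⟨4, by norm_num, by norm_num⟩
  obtain ⟨n, hn, hn1⟩ := key _ h6 h7
  refine ⟨n, hn, ?_⟩
  rw [Nat.mul_mod]
  rw [Nat.mul_mod, Nat.mod_mod] at hn1
  exact hn1

section

variable {a b w : G} (h : Heis.Rel 5 a b w)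
include h

/-- `a b^j w^k` is conjugate to `a b^j` -/
theorem mem_a (hC : CC 5 C) {j k : ℕ} (hx : a * b ^ j * w ^ k ∈ C) : a * b ^ j ∈ C := by
  have h1 := hC.conj (b ^ k)⁻¹ _ hx
  have h2 : (b ^ k)⁻¹ * (a * b ^ j * w ^ k) * (b ^ k)⁻¹⁻¹ = a * b ^ j := by
    have h3 := h.ba2 k 1
    rw [pow_one, mul_one] at h3
    have c1 : Commute (w ^ k) (b ^ j) := (show Commute w b from h.bw.symm).pow_pow _ _
    have c2 : Commute (b ^ k) (b ^ j) := Commute.pow_pow (Commute.refl b) k j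
    have c3 : Commute (w ^ k) (b ^ k) := (show Commute w b from h.bw.symm).pow_pow _ _
    rw [inv_inv, mul_assoc, inv_mul_eq_iff_eq_mul]
    calc a * b ^ j * w ^ k * b ^ k = a * b ^ j * (w ^ k * b ^ k) := by group
      _ = a * (b ^ j * b ^ k) * w ^ k := by rw [c3.eq]; group
      _ = a * b ^ k * (b ^ j * w ^ k) := by rw [← c2.eq]; group
      _ = (a * b ^ k * w ^ k) * b ^ j := by rw [← c1.eq]; group
      _ = b ^ k * (a * b ^ j) := by rw [← h3]; group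
  rwa [h2] at h1

/-- `b w^k` is conjugate to `b` -/
theorem mem_b (hC : CC 5 C) {k : ℕ} (hx : b * w ^ k ∈ C) : b ∈ C := by
  have h1 := hC.conj (a ^ k) _ hx
  have h2 : a ^ k * (b * w ^ k) * (a ^ k)⁻¹ = b := by
    have h3 := h.ba2 1 k
    rw [pow_one, one_mul] at h3
    rw [mul_inv_eq_iff_eq_mul, h3]
    group
  rwa [h2] at h1

/-- **The prime 5.** -/
theorem heis_five [Finite G] (hC : Min 5 C) (hcard : ¬ 5 ^ 4 ∣ Nat.card G) (hw : w ∉ C) (hb : b ∉ C)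
    (hab : ∀ j < 5, a * b ^ j ∉ C) : ∀ c ∈ C, c = 1 := by
  have hp : Fact (Nat.Prime 5) := ⟨by norm_num⟩
  intro c hc
  by_contra hc1
  have hi : ¬ 5 ∣ (Heis.gp h).index := by
    intro h1
    apply hcard
    rw [← (Heis.gp h).card_mul_index, Heis.card h, pow_succ]
    exact mul_dvd_mul_left _ h1
  obtain ⟨g, hg⟩ := hC.exists_conj_mem hi hc
  have hx5 : (g * c * g⁻¹) ^ 5 = 1 := Heis.pow_p h (by norm_num) hg
  have hxC : g * c * g⁻¹ ∈ C := hC.conj g c hc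
  have hx1 : g * c * g⁻¹ ≠ 1 := fun h1 => hc1 (by simpa using h1)
  obtain ⟨i, j, k, he⟩ := hg
  rw [he] at hx5 hxC hx1
  by_cases hi0 : 5 ∣ i
  · rw [Heis.pow_eq_one_of h.ap hi0, one_mul] at hx5 hxC hx1
    by_cases hj0 : 5 ∣ j
    · rw [Heis.pow_eq_one_of h.bp hj0, one_mul] at hx5 hxC hx1
      by_cases hk0 : 5 ∣ k
      · exact hx1 (Heis.pow_eq_one_of h.wp hk0)
      · obtain ⟨n, hn, hn1⟩ := exists_inv_mod hk0
        have h1 := pow_mem_C hC.toCC hxC hx5 hn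
        rw [← pow_mul, Heis.pow_red h.wp, mul_comm, hn1, pow_one] at h1
        exact hw h1
    · obtain ⟨n, hn, hn1⟩ := exists_inv_mod hj0
      have h1 := pow_mem_C hC.toCC hxC hx5 hn
      have h2 := h.pow 0 j k n
      rw [pow_zero, one_mul, mul_zero, pow_zero, one_mul, mul_zero, zero_mul, add_zero,
        Heis.pow_red h.bp (n * j), hn1, pow_one] at h2
      rw [h2] at h1
      exact hb (mem_b h hC.toCC h1)
  · obtain ⟨n, hn, hn1⟩ := exists_inv_mod hi0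
    have h1 := pow_mem_C hC.toCC hxC hx5 hn
    rw [h.pow, Heis.pow_red h.ap (n * i), hn1, pow_one] at h1
    have h2 := mem_a h hC.toCC h1
    rw [Heis.pow_red h.bp] at h2
    exact hab _ (Nat.mod_lt _ (by norm_num)) h2

end

end Cfsg.Agent.H174.CC
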